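import Mathlib
import Cfsg.Agent.H105.Og.SlE
import Cfsg.Agent.H122.OrthStep
import Cfsg.Agent.H122.OrthIso
import Cfsg.Agent.H514.DP.Core

/-!
# The degree bound for `E (HU (Fin n) R)` (helper105)
-/

set_option autoImplicit false

namespace Cfsg.Agent.H105.Og

open QuadraticMap Matrix Module Cfsg.Agent.LieClassical.OrthCore Cfsg.Agent.LieClassical.OrthTrans
  Cfsg.Agent.LieClassical.OrthFinite Cfsg.Agent.H122.OrthIso Cfsg.Agent.H122.OrthWt Cfsg.Agent.H122.OrthRep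
  Cfsg.Agent.H122.OrthStep Cfsg.Agent.H122.OrthSum

section core

variable {F : Type} [Field F] [Fintype F] {W : Type} [AddCommGroup W] [Module F W] [Fintype W]

theorem minDeg_core (Q : QuadraticForm F W) (hG : Good (HQ (HQ (HQ Q)))) (hQ : Nondeg (HQ (HQ Q)))
    (hT : TransN (HQ (HQ Q))) :
    Cfsg.Agent.H122.MinDeg (E (HQ (HQ (HQ Q))))
      ((Fintype.card F - 1) * (Fintype.card W * Fintype.card F ^ 2 + Fintype.card W * Fintype.card F) - 1) := by
  classical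
  intro M _ _ _ ρ hρ
  obtain ⟨ψ, hψ⟩ : ∃ ψ : AddChar F ℂ, ψ ≠ 1 := by
    obtain ⟨ψ, hψ⟩ : ∃ ψ : AddChar F ℂ, ψ 1 ≠ 1 := AddChar.exists_apply_ne_zero.mpr one_ne_zero
    exact ⟨ψ, fun h => hψ (by rw [h]; rfl)⟩
  have h1 := exists_fm (HQ Q) ρ hG hQ hT hψ hρ
  have h2 := finrank_eq (HQ Q) ρ hQ hT hψ
  set f : F → ℕ := fm (HQ Q) ρ ψ with hf
  rw [sum_HQ, sum_HQ] at h2
  have hP : Ph (fun c => (f c : ℂ)) = ((∑ c, f c : ℕ) : ℂ) := by
    rw [Ph]; push_cast; rfl
  have hS : Sm Q (fun c => (f c : ℂ)) = ((∑ w, f (Q w) : ℕ) : ℂ) := by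
    rw [Sm]; push_cast; rfl
  have hW : (Fintype.card (W × F × F) : ℂ) = Fintype.card W * (Fintype.card F * Fintype.card F) := by
    rw [Fintype.card_prod, Fintype.card_prod]; push_cast; rfl
  rw [hP, hS, hW] at h2
  set P := ∑ c, f c with hPdef
  set S := ∑ w, f (Q w)
  have h0 : f 0 ≤ P := Finset.single_le_sum (f := f) (fun _ _ => Nat.zero_le _) (Finset.mem_univ 0)
  obtain ⟨q, hq⟩ : ∃ q, Fintype.card F = q + 1 := ⟨Fintype.card F - 1, (Nat.sub_add_cancel Fintype.card_pos).symm⟩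
  rw [hq] at h2 ⊢
  set w := Fintype.card W
  have h3 : finrank ℂ M + f 0 = mu (HQ (HQ Q)) ρ ψ 0 + ((q + 1) * ((q + 1) * S + q * w * P) +
      q * (w * ((q + 1) * (q + 1))) * P) := by
    have : (finrank ℂ M : ℂ) + f 0 = mu (HQ (HQ Q)) ρ ψ 0 + ((q + 1) * ((q + 1) * S + q * w * P) +
      q * (w * ((q + 1) * (q + 1))) * P) := by
      rw [h2]
      push_cast
      ring
    exact_mod_cast this
  rw [Nat.add_sub_cancel]
  set B := q * (w * (q + 1) ^ 2 + w * (q + 1)) with hB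
  have h4 : (q + 1) * ((q + 1) * S + q * w * P) + q * (w * ((q + 1) * (q + 1))) * P =
      (q + 1) * ((q + 1) * S) + B * P := by
    rw [hB]; ring
  rw [h4] at h3
  have h5 : B * P ≤ finrank ℂ M + P := by omega
  rcases Nat.eq_zero_or_pos B with hB0 | hB0
  · omega
  · obtain ⟨b, hb⟩ : ∃ b, B = b + 1 := ⟨B - 1, by omega⟩
    rw [hb, Nat.add_mul, one_mul] at h5
    rw [hb, Nat.add_sub_cancel]
    have h6 : b * 1 ≤ b * P := Nat.mul_le_mul_left _ h1
    omega

end core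

section iso

variable {F : Type*} [Field F] {U : Type*} [AddCommGroup U] [Module F U]

/-- splitting off a hyperbolic plane -/
def splitE (n : ℕ) (F U : Type*) [Field F] [AddCommGroup U] [Module F U] :
    (((Fin (n + 1) → F) × (Fin (n + 1) → F)) × U) ≃ₗ[F] ((((Fin n → F) × (Fin n → F)) × U) × F × F) where
  toFun v := (((Fin.tail v.1.1, Fin.tail v.1.2), v.2), v.1.1 0, v.1.2 0)
  map_add' _ _ := rfl
  map_smul' _ _ := rfl
  invFun v := ((Fin.cons v.2.1 v.1.1.1, Fin.cons v.2.2 v.1.1.2), v.1.2)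
  left_inv v := by
    refine Prod.ext (Prod.ext ?_ ?_) rfl
    · exact Fin.cons_self_tail _
    · exact Fin.cons_self_tail _
  right_inv v := rfl

theorem isoQ_HU (n : ℕ) (R : QuadraticForm F U) : IsoQ (HU (Fin (n + 1)) R) (HQ (HU (Fin n) R)) := by
  refine ⟨splitE n F U, fun v => ?_⟩
  rw [HQ_apply, HU_apply, HU_apply, dotProduct, dotProduct, Fin.sum_univ_succ]
  show ∑ i, Fin.tail v.1.1 i * Fin.tail v.1.2 i + R v.2 + v.1.1 0 * v.1.2 0 = _
  simp only [Fin.tail]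
  ring

end iso

section main

variable {F : Type} [Field F] [Finite F] {U : Type} [AddCommGroup U] [Module F U] [FiniteDimensional F U]

/-- **Lemma A** -/
theorem lemmaA {n : ℕ} (hn : 3 ≤ n) {R : QuadraticForm F U} (hR : Nondeg R) (hd : 7 ≤ 2 * n + finrank F U) :
    Cfsg.Agent.H514.DP.MinDeg (E (HU (Fin n) R))
      ((Nat.card F - 1) * (Nat.card F ^ (2 * n + finrank F U - 4) + Nat.card F ^ (2 * n + finrank F U - 5)) - 1) := by
  classical
  obtain ⟨k, rfl⟩ : ∃ k, n = k + 3 := ⟨n - 3, by omega⟩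
  have := Fintype.ofFinite F
  have hfin : Finite (((Fin k → F) × (Fin k → F)) × U) := Module.finite_of_finite F
  have := Fintype.ofFinite (((Fin k → F) × (Fin k → F)) × U)
  set Q := HU (Fin k) R with hQdef
  have h1 : IsoQ (HU (Fin (k + 1)) R) (HQ Q) := isoQ_HU k R
  have h2 : IsoQ (HU (Fin (k + 2)) R) (HQ (HQ Q)) := (isoQ_HU (k + 1) R).trans h1.hq
  have h3 : IsoQ (HU (Fin (k + 3)) R) (HQ (HQ (HQ Q))) := (isoQ_HU (k + 2) R).trans h2.hq
  have hnd : ∀ {V V' : Type} [AddCommGroup V] [Module F V] [AddCommGroup V'] [Module F V']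
      {Q1 : QuadraticForm F V} {Q2 : QuadraticForm F V'}, IsoQ Q1 Q2 → Nondeg Q1 → Nondeg Q2 := by
    intro V V' _ _ _ _ Q1 Q2 h hN x hx
    obtain ⟨e, he⟩ := h
    obtain ⟨x, rfl⟩ := e.surjective x
    rw [hN x (fun y => by rw [← polar_iso he]; exact hx _), map_zero]
  have hN2 : Nondeg (HQ (HQ Q)) := hnd h2 (nondeg_HU hR)
  have hN3 : Nondeg (HQ (HQ (HQ Q))) := hnd h3 (nondeg_HU hR)
  have hfr : finrank F (((Fin k → F) × (Fin k → F)) × U) = 2 * k + finrank F U := finrank_HU k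
  have hG2 : Good (HQ (HQ Q)) := good_of_finite hN2 (by
    rw [finrank_HQ', finrank_HQ', hfr]; omega)
  have hG3 : Good (HQ (HQ (HQ Q))) := good_of_finite hN3 (by
    rw [finrank_HQ', finrank_HQ', finrank_HQ', hfr]; omega)
  have h4 := minDeg_core Q hG3 hN2 (transN_of_good _ hG2)
  have h5 := h3.symm.minDeg h4
  have hW : Fintype.card (((Fin k → F) × (Fin k → F)) × U) = Fintype.card F ^ (2 * k + finrank F U) := by
    rw [Module.card_eq_pow_finrank (K := F), hfr]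
  rw [hW, ← pow_add, ← pow_succ] at h5
  intro j ρ hρ hj
  have h6 := h5.irr j ρ hρ hj
  rw [Nat.card_eq_fintype_card]
  have e1 : 2 * (k + 3) + finrank F U - 4 = 2 * k + finrank F U + 2 := by omega
  have e2 : 2 * (k + 3) + finrank F U - 5 = 2 * k + finrank F U + 1 := by omega
  rw [e1, e2]
  exact h6

end main

end Cfsg.Agent.H105.Og
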