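import Mathlib
import Cfsg.Agent.H105.Og.SlE
import Cfsg.Agent.LieClassical.OrthForms
import Cfsg.Agent.LieClassical.OrthSimple
import Cfsg.Prelude.Def_LieTypeChar
import Cfsg.Agent.S0292

/-!
# Transfer to `PΩ_{2m+1}(q)` (helper105)
-/

set_option autoImplicit false

namespace Cfsg.Agent.H105.Og

open QuadraticMap Cfsg Matrix Module Subgroup Cfsg.Agent.LieClassical.OrthCore
  Cfsg.Agent.LieClassical.OrthForms Cfsg.Agent.LieClassical.OrthFinite Cfsg.Agent.LieClassical.OrthTrans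
  Cfsg.Agent.LieClassical.OrthSimple Cfsg.Agent.H122.OrthIso

theorem quot_of_iso {ι : Type} [Fintype ι] [DecidableEq ι] {F : Type} [Field F] [Finite F]
    {Q : QuadraticForm F (ι → F)} (hQ : Nondeg Q) (hd : 5 ≤ Fintype.card ι) {qf : (ι → F) → F} (hqf : ⇑Q = qf)
    {S : Type*} [Group S] (φ : S ≃* POmega F qf) {V' : Type} [AddCommGroup V'] [Module F V']
    {Q' : QuadraticForm F V'} (hiso : IsoQ Q Q') : Nonempty ((E Q' ⧸ center (E Q')) ≃* S) := by
  subst hqf
  have hG : Good Q := good_of_finite hQ (by rwa [Module.finrank_fintype_fun_eq_card])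
  obtain ⟨e⟩ := hiso.equiv
  exact ⟨((φ.trans (quotientCenterCongr
    ((omegaEquiv Q).trans (MulEquiv.subgroupCongr hG.commutator_eq_E)))).trans (quotientCenterCongr e)).symm⟩

/-- the isometry `quadFormOdd m F ≅ HU (Fin m) (z²)` -/
def oddE (m : ℕ) (F : Type*) [Field F] :
    (Unit ⊕ (Fin m ⊕ Fin m) → F) ≃ₗ[F] (((Fin m → F) × (Fin m → F)) × F) where
  toFun v := ((fun i => v (.inr (.inl i)), fun i => v (.inr (.inr i))), v (.inl ()))
  map_add' _ _ := rfl
  map_smul' _ _ := rfl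
  invFun v := Sum.elim (fun _ => v.2) (Sum.elim v.1.1 v.1.2)
  left_inv v := by
    funext i
    rcases i with i | i | i <;> rfl
  right_inv _ := rfl

theorem isoQ_odd (m : ℕ) (F : Type*) [Field F] :
    IsoQ (oddForm m F) (HU (Fin m) (QuadraticMap.sq (R := F))) := by
  refine ⟨oddE m F, fun v => ?_⟩
  rw [HU_apply, coe_oddForm, quadFormOdd, pow_two, add_comm]
  rfl

theorem nondeg_sq {F : Type*} [Field F] (h2 : (2 : F) ≠ 0) : Nondeg (QuadraticMap.sq (R := F)) := by
  intro x hx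
  have h := hx 1
  rw [polar] at h
  have h3 : (x + 1) * (x + 1) - x * x - 1 * 1 = 0 := h
  have h4 : 2 * x = 0 := by linear_combination h3
  exact (mul_eq_zero.1 h4).resolve_left h2

theorem transOdd {S : Type*} [Group S] [IsSimpleGroup S] {l : ℕ} (h : IsPOmegaOddChar l S) :
    ∃ (F : Type) (_ : Field F) (_ : Finite F) (U : Type) (_ : AddCommGroup U) (_ : Module F U)
      (_ : FiniteDimensional F U) (n : ℕ) (R : QuadraticForm F U), 3 ≤ n ∧ finrank F U = 1 ∧ Nondeg R ∧
      (2 : F) ≠ 0 ∧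
      Nat.card S ∣ Nat.card F ^ (n ^ 2) * ∏ i ∈ Finset.range n, (Nat.card F ^ (2 * (i + 1)) - 1) ∧
      Nonempty ((E (HU (Fin n) R) ⧸ center (E (HU (Fin n) R))) ≃* S) := by
  obtain ⟨F, _, _, _, m, hm, ho, ⟨φ⟩⟩ := h
  have h2 : (2 : F) ≠ 0 := by
    intro h0
    have h1 : ((Fintype.card F : ℕ) : F) = 0 := FiniteField.cast_card_eq_zero F
    obtain ⟨k, hk⟩ := ho
    rw [hk] at h1
    push_cast at h1
    rw [h0, zero_mul, zero_add] at h1
    exact one_ne_zero h1
  refine ⟨F, inferInstance, inferInstance, F, inferInstance, inferInstance, inferInstance, m,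
    QuadraticMap.sq (R := F), hm, Module.finrank_self F, nondeg_sq h2, h2, ?_,
    quot_of_iso (nondeg_oddForm m F h2) (by simp; omega) (coe_oddForm m F) φ (isoQ_odd m F)⟩
  have h3 := S0292.result (F := F) rfl ho m hm
  rw [Nat.card_eq_fintype_card (α := F), ← h3, Nat.card_congr φ.toEquiv]
  exact Dvd.intro_left _ rfl

end Cfsg.Agent.H105.Og
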